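import Mathlib
import Cfsg.Agent.UGeom.Simple
import Cfsg.Agent.Forms.Unitary
import Cfsg.Agent.Forms.EvenType

/-!
`SU_4(q)` on the alternating matrices fixed by the twisted duality.
-/

set_option autoImplicit false

open Matrix

namespace CfsgLib.Klein

variable {K : Type*} [Field K]

/-- Duality of alternating `4 × 4` matrices. -/
def dual (X : Matrix (Fin 4) (Fin 4) K) : Matrix (Fin 4) (Fin 4) K :=
  !![0, X 2 3, -X 1 3, X 1 2; -X 2 3, 0, X 0 3, -X 0 2; X 1 3, -X 0 3, 0, X 0 1; -X 1 2, X 0 2, -X 0 1, 0]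

/-- The Pfaffian. -/
def pf (X : Matrix (Fin 4) (Fin 4) K) : K := X 0 1 * X 2 3 - X 0 2 * X 1 3 + X 0 3 * X 1 2

/-- The alternating matrix with given upper entries. -/
def alt (a b c d e f : K) : Matrix (Fin 4) (Fin 4) K :=
  !![0, a, b, c; -a, 0, d, e; -b, -d, 0, f; -c, -e, -f, 0]

set_option maxHeartbeats 4000000 in
theorem dual_congr (g : Matrix (Fin 4) (Fin 4) K) (a b c d e f : K) :
    g.transpose * dual (g * alt a b c d e f * g.transpose) * g = g.det • dual (alt a b c d e f) := by
  rw [Matrix.det_succ_row_zero]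
  simp [Fin.sum_univ_four, Matrix.det_fin_three, Fin.succAbove]
  ext i j
  fin_cases i <;> fin_cases j <;>
    simp [dual, alt, Matrix.mul_apply, Matrix.vecMul, dotProduct, Fin.sum_univ_four] <;> ring

set_option maxHeartbeats 4000000 in
theorem pf_congr (g : Matrix (Fin 4) (Fin 4) K) (a b c d e f : K) :
    pf (g * alt a b c d e f * g.transpose) = g.det * pf (alt a b c d e f) := by
  rw [Matrix.det_succ_row_zero]
  simp [pf, alt, Matrix.mul_apply, Matrix.vecMul, dotProduct, Fin.sum_univ_four, Matrix.det_fin_three, Fin.succAbove]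
  ring

end CfsgLib.Klein
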